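import Mathlib

/-! Counting linear characters of exponent `p` of a cyclic group; exponents. -/

set_option autoImplicit false

namespace Cfsg.Agent.Lib.Helper24

theorem card_hom_pow_eq_one (Q : Type*) [Group Q] [Finite Q] [IsCyclic Q] (p : ℕ) [NeZero p]
    (hp : p ∣ Nat.card Q) :
    Nat.card {μ : Q →* ℂˣ // ∀ q, μ q ^ p = 1} = p := by
  obtain ⟨g, hg⟩ := IsCyclic.exists_generator (α := Q)
  have e : {μ : Q →* ℂˣ // ∀ q, μ q ^ p = 1} ≃ rootsOfUnity p ℂ :=
    { toFun := fun μ => ⟨μ.1 g, (mem_rootsOfUnity _ _).2 (μ.2 g)⟩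
      invFun := fun ζ => ⟨monoidHomOfForallMemZpowers hg (g' := (ζ : ℂˣ)) (by
          rw [orderOf_eq_card_of_forall_mem_zpowers hg]
          exact (orderOf_dvd_of_pow_eq_one ((mem_rootsOfUnity _ _).1 ζ.2)).trans hp), by
          intro q
          obtain ⟨k, rfl⟩ := Subgroup.mem_zpowers_iff.1 (hg q)
          rw [map_zpow, monoidHomOfForallMemZpowers_apply_gen, ← zpow_natCast, ← zpow_mul,
            mul_comm, zpow_mul, zpow_natCast, (mem_rootsOfUnity _ _).1 ζ.2, one_zpow]⟩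
      left_inv := fun μ => Subtype.ext ((MonoidHom.eq_iff_eq_on_generator hg _ _).2 (by simp))
      right_inv := fun ζ => Subtype.ext (by simp) }
  rw [Nat.card_congr e, Complex.card_rootsOfUnity]

/-- an exponent acting as `1 + p` on `p`-elements and trivially on `p'`-elements is prime to the order -/
theorem coprime_card_of_pow {G : Type*} [Group G] [Finite G] (p : ℕ) [Fact p.Prime] (k : ℕ)
    (hk₁ : ∀ g : G, (∃ j : ℕ, orderOf g = p ^ j) → g ^ k = g ^ (1 + p))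
    (hk₂ : ∀ g : G, Nat.Coprime (orderOf g) p → g ^ k = g) : k.Coprime (Nat.card G) := by
  by_contra hcon
  obtain ⟨q, hq, hqk, hqG⟩ := Nat.Prime.not_coprime_iff_dvd.1 hcon
  haveI : Fact q.Prime := ⟨hq⟩
  obtain ⟨x, hx⟩ := exists_prime_orderOf_dvd_card' q hqG
  have hxk : x ^ k = 1 := orderOf_dvd_iff_pow_eq_one.1 (hx ▸ hqk)
  have hx1 : x = 1 := by
    by_cases hqp : q = p
    · have h1 := hk₁ x ⟨1, by rw [hx, hqp, pow_one]⟩
      rw [hxk, pow_add, pow_one, ← hqp, ← hx, pow_orderOf_eq_one, mul_one] at h1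
      exact h1.symm
    · have h1 := hk₂ x (by rw [hx]; exact (Nat.coprime_primes hq Fact.out).2 hqp)
      rw [hxk] at h1
      exact h1.symm
  rw [hx1, orderOf_one] at hx
  exact hq.one_lt.ne hx

theorem pow_eq_self_of_pow {G : Type*} [Group G] [Finite G] (p : ℕ) [Fact p.Prime] (k : ℕ)
    (hk₁ : ∀ g : G, (∃ j : ℕ, orderOf g = p ^ j) → g ^ k = g ^ (1 + p))
    (hpG : p ∣ Nat.card G) {A : Type*} [Group A] (z : A) (hz : z ^ p = 1) : z ^ k = z := by
  obtain ⟨x, hx⟩ := exists_prime_orderOf_dvd_card' p hpG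
  have h1 := hk₁ x ⟨1, by rw [hx, pow_one]⟩
  rw [pow_eq_pow_iff_modEq, hx] at h1
  have h2 : k ≡ 1 + p [MOD orderOf z] := h1.of_dvd (orderOf_dvd_of_pow_eq_one hz)
  rw [pow_eq_pow_iff_modEq.2 h2, pow_add, pow_one, hz, mul_one]

end Cfsg.Agent.Lib.Helper24
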