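import Mathlib
import Cfsg.Agent.H6.Det

/-! The determinantal character of a sum of linear characters; characters vanishing on a cyclic subgroup. -/

set_option autoImplicit false

namespace Cfsg.Agent.Lib.Helper24

open Cfsg Cfsg.Agent Cfsg.Agent.CharLib

/-- the diagonal representation attached to a family of linear characters -/
noncomputable def diagRep {H : Type*} [Group H] {ι : Type*} [Fintype ι] [DecidableEq ι]
    (μ : ι → (H →* ℂˣ)) : Representation ℂ H (ι → ℂ) where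
  toFun h := Matrix.toLin' (Matrix.diagonal fun i => ((μ i h : ℂˣ) : ℂ))
  map_one' := by
    simp
    rfl
  map_mul' a b := by
    rw [Module.End.mul_eq_comp, ← Matrix.toLin'_mul, Matrix.diagonal_mul_diagonal]
    simp

theorem detChar_of_sum_hom {H : Type*} [Group H] [Finite H] {ι : Type*} [Fintype ι] [DecidableEq ι]
    (μ : ι → (H →* ℂˣ)) {χ : H → ℂ} (hχ : ∀ h, χ h = ∑ i, ((μ i h : ℂˣ) : ℂ)) (h : H) :
    detChar χ h = ∏ i, ((μ i h : ℂˣ) : ℂ) := by
  have hchar : (diagRep μ).character = χ := by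
    funext g
    rw [hχ]
    show LinearMap.trace ℂ _ (Matrix.toLin' (Matrix.diagonal fun i => ((μ i g : ℂˣ) : ℂ))) = _
    rw [Matrix.trace_toLin'_eq, Matrix.trace_diagonal]
  obtain ⟨n, ρ, hρ⟩ := isCharacter_char (diagRep μ)
  rw [← hchar, ← hρ, H6.detChar_eq]
  obtain ⟨φ⟩ := H2.nonempty_equiv_of_char_eq ρ (diagRep μ) hρ
  show LinearMap.det (ρ h) = _
  rw [H6.det_eq_of_equiv ρ (diagRep μ) φ h]
  show LinearMap.det (Matrix.toLin' (Matrix.diagonal fun i => ((μ i h : ℂˣ) : ℂ))) = _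
  rw [LinearMap.det_toLin', Matrix.det_diagonal]

theorem detChar_of_vanish {G : Type*} [Group G] [Finite G] {χ : G → ℂ} (hχ : IsCharacter G χ)
    (y : G) (e t : ℕ) (he : Even e) (he0 : 0 < e) (hy : orderOf y = e) (h1 : χ 1 = (e : ℂ) * t)
    (hv : ∀ i, 0 < i → i < e → χ (y ^ i) = 0) : detChar χ y = (-1) ^ t := by
  classical
  set H := Subgroup.zpowers y with hH
  let y' : H := ⟨y, Subgroup.mem_zpowers y⟩
  have hgen : ∀ h : H, h ∈ Subgroup.zpowers y' := by
    rintro ⟨h, hh⟩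
    obtain ⟨k, rfl⟩ := Subgroup.mem_zpowers_iff.1 hh
    exact Subgroup.mem_zpowers_iff.2 ⟨k, Subtype.ext (by simp [y'])⟩
  have hy' : orderOf y' = e := by rw [← hy]; exact Subgroup.orderOf_mk y _
  have hζ := Complex.isPrimitiveRoot_exp e he0.ne'
  set ζ : ℂ := Complex.exp (2 * Real.pi * Complex.I / e) with hζdef
  let ζu : ℂˣ := Units.mk0 ζ (hζ.ne_zero he0.ne')
  have hζu' : IsPrimitiveRoot ζu e := IsPrimitiveRoot.coe_units_iff.1 hζ
  have hζu : orderOf ζu = e := hζu'.eq_orderOf.symm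
  let lam : H →* ℂˣ := monoidHomOfForallMemZpowers hgen (g' := ζu) (by rw [hζu, hy'])
  have hlam : lam y' = ζu := monoidHomOfForallMemZpowers_apply_gen hgen _
  let μ : Fin t × Fin e → (H →* ℂˣ) := fun ij => lam ^ (ij.2 : ℕ)
  have hμ : ∀ (ij : Fin t × Fin e) (k : ℕ), ((μ ij (y' ^ k) : ℂˣ) : ℂ) = (ζ ^ k) ^ (ij.2 : ℕ) := by
    intro ij k
    show (((lam ^ (ij.2 : ℕ)) (y' ^ k) : ℂˣ) : ℂ) = _
    rw [MonoidHom.pow_apply, map_pow, hlam]
    rfl
  have hsum : ∀ h : H, χ h = ∑ ij, ((μ ij h : ℂˣ) : ℂ) := by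
    intro h
    obtain ⟨n, hn⟩ := mem_powers_iff_mem_zpowers.2 (hgen h)
    have hn' : y' ^ (n % e) = h := by rw [← hy', pow_mod_orderOf]; exact hn
    have hlt : n % e < e := Nat.mod_lt _ he0
    generalize n % e = k at hn' hlt
    subst hn'
    simp only [hμ]
    rw [Fintype.sum_prod_type]
    simp only [Fin.sum_univ_eq_sum_range (fun j => (ζ ^ k) ^ j) e]
    rw [Finset.sum_const, Finset.card_univ, Fintype.card_fin, nsmul_eq_mul]
    rcases Nat.eq_zero_or_pos k with rfl | hk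
    · simp [h1, mul_comm]
    · have hne : ζ ^ k ≠ 1 := hζ.pow_ne_one_of_pos_of_lt hk.ne' hlt
      rw [geom_sum_eq hne, ← pow_mul, mul_comm k e, pow_mul, hζ.pow_eq_one, one_pow, sub_self,
        zero_div, mul_zero]
      exact hv k hk hlt
  have h2 := congrFun (H6.detChar_restrict hχ H) y'
  rw [detChar_of_sum_hom μ hsum y'] at h2
  have h3 : detChar χ y = ∏ ij, ((μ ij y' : ℂˣ) : ℂ) := h2.symm
  rw [h3]
  have hμ1 : ∀ ij : Fin t × Fin e, ((μ ij y' : ℂˣ) : ℂ) = ζ ^ (ij.2 : ℕ) := by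
    intro ij
    have := hμ ij 1
    rwa [pow_one, pow_one] at this
  simp only [hμ1]
  rw [Fintype.prod_prod_type]
  simp only [Fin.prod_univ_eq_prod_range (fun j => ζ ^ j) e]
  rw [Finset.prod_const, Finset.card_univ, Fintype.card_fin]
  congr 1
  obtain ⟨m, hm⟩ := he
  have hm0 : 0 < m := by omega
  rw [Finset.prod_pow_eq_pow_sum]
  have hs : ∑ i ∈ Finset.range e, i = m * (2 * m - 1) := by
    have h4 := Finset.sum_range_id_mul_two e
    have h5 : e * (e - 1) = m * (2 * m - 1) * 2 := by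
      rw [hm, show m + m - 1 = 2 * m - 1 by omega]; ring
    rw [h5] at h4
    exact Nat.eq_of_mul_eq_mul_right (by norm_num) h4
  rw [hs, pow_mul]
  have hzm : ζ ^ m = -1 := by
    have h6 : ζ ^ m ≠ 1 := hζ.pow_ne_one_of_pos_of_lt hm0.ne' (by omega)
    have h7 : (ζ ^ m) ^ 2 = 1 := by rw [← pow_mul, show m * 2 = e by omega, hζ.pow_eq_one]
    rcases sq_eq_one_iff.1 h7 with h | h
    · exact absurd h h6
    · exact h
  rw [hzm]
  exact Odd.neg_one_pow ⟨m - 1, by omega⟩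

end Cfsg.Agent.Lib.Helper24
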