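import Mathlib
import Cfsg.Prelude.Def_DegreeGraph
import Cfsg.Agent.CharLib.BurnsideSimple
import Cfsg.Agent.CharLib.Orth
import Cfsg.Agent.Lib.Helper23.DegLib
import Cfsg.Agent.Lib.Helper23.CharDeg2
import Cfsg.Agent.S0174

/-! A finite group whose irreducible character degrees involve at most two primes is solvable. -/

set_option autoImplicit false

namespace Cfsg.Agent.Lib.Helper24.ThreeDegPrimes

open Cfsg Cfsg.Agent Cfsg.Agent.CharLib Cfsg.Agent.Lib.Helper23 Module
open scoped ComplexConjugate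

universe u

/-- Burnside's argument: a simple group with a non-identity element whose class size is prime to
every irreducible degree not divisible by `q` has prime order. -/
theorem prime_card_of_coprime_class {G : Type*} [Group G] [Finite G] [IsSimpleGroup G]
    (q : ℕ) (hq : q.Prime) (g : G) (hg : g ≠ 1)
    (hclass : ∀ (n : ℕ) (ρ : Representation ℂ G (Fin n → ℂ)), ρ.IsIrreducible → ¬ q ∣ n →
      Nat.Coprime n (Subgroup.centralizer ({g} : Set G)).index) : (Nat.card G).Prime := by
  classical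
  have hqC : (q : ℂ) ≠ 0 := by exact_mod_cast hq.ne_zero
  let triv : Cfsg.IrrCharacter G := ⟨fun _ => 1, isIrrCharacter_one_L⟩
  have key : ∃ (n : ℕ) (ρ : Representation ℂ G (Fin n → ℂ)), ρ.IsIrreducible ∧
      ρ.character ≠ (fun _ => (1 : ℂ)) ∧ ¬ q ∣ n ∧ ρ.character g ≠ 0 := by
    by_contra hcon
    push Not at hcon
    have hsum := sum_irr_one_mul (G := G) g
    rw [if_neg hg, ← Finset.add_sum_erase Finset.univ _ (Finset.mem_univ triv)] at hsum
    have hint : IsIntegral ℤ (∑ χ ∈ Finset.univ.erase triv,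
        ((χ : G → ℂ) 1 * (χ : G → ℂ) g) / (q : ℂ)) := by
      refine IsIntegral.sum _ fun χ hχ => ?_
      have hne : χ ≠ triv := Finset.ne_of_mem_erase hχ
      obtain ⟨n, ρ, hirr, hch⟩ := χ.2
      have hne' : ρ.character ≠ (fun _ => (1 : ℂ)) := by
        intro h; apply hne; apply Subtype.ext; rw [← hch]; exact h
      have h1 : (χ : G → ℂ) 1 = (n : ℂ) := by rw [← hch, Representation.char_one]; simp
      rw [h1, ← hch]
      by_cases hdvd : q ∣ n
      · obtain ⟨m, rfl⟩ := hdvd
        have : ((q * m : ℕ) : ℂ) * ρ.character g / (q : ℂ) = ρ.character g * (m : ℂ) := by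
          push_cast; field_simp
        rw [this]
        exact (isIntegral_character ρ g).mul (isIntegral_algebraMap (R := ℤ) (x := (m : ℤ)))
      · rw [hcon n ρ hirr hne' hdvd]; simp [isIntegral_zero]
    have h2 : (1 : ℂ) / (q : ℂ) = - ∑ χ ∈ Finset.univ.erase triv,
        ((χ : G → ℂ) 1 * (χ : G → ℂ) g) / (q : ℂ) := by
      rw [← Finset.sum_div]
      have h3 : (triv : G → ℂ) 1 * (triv : G → ℂ) g = 1 := by simp [triv]
      rw [h3] at hsum
      have h4 : ∑ χ ∈ Finset.univ.erase triv, ((χ : G → ℂ) 1 * (χ : G → ℂ) g) = -1 := by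
        linear_combination hsum
      rw [h4]; ring
    have h5 : IsIntegral ℤ (((1 : ℕ) : ℂ) / (q : ℂ)) := by
      rw [Nat.cast_one, h2]; exact hint.neg
    have := dvd_of_isIntegral_div hq.ne_zero h5
    exact hq.one_lt.ne' (Nat.dvd_one.mp this)
  obtain ⟨n, ρ, hirr, hne, hqn, hg0⟩ := key
  haveI := hirr
  have hfr : finrank ℂ (Fin n → ℂ) = n := by simp
  have hcop : Nat.Coprime (finrank ℂ (Fin n → ℂ)) (Subgroup.centralizer ({g} : Set G)).index := by
    rw [hfr]
    exact hclass n ρ hirr hqn
  have hnorm := (character_eq_zero_or_norm_eq ρ g hcop).resolve_left hg0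
  obtain ⟨ω, hω⟩ := (norm_character_eq_iff ρ g).mp hnorm
  rcases (MonoidHom.normal_ker (ρ : G →* End ℂ (Fin n → ℂ))).eq_bot_or_eq_top with hbot | htop
  · have hinj : Function.Injective ρ := (MonoidHom.ker_eq_bot_iff _).mp hbot
    have hcen : g ∈ Subgroup.center G := by
      rw [Subgroup.mem_center_iff]
      intro y
      apply hinj
      rw [map_mul, map_mul, hω]
      ext v
      simp
    have hctop : Subgroup.center G = ⊤ := by
      rcases (inferInstance : (Subgroup.center G).Normal).eq_bot_or_eq_top with h | h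
      · rw [h, Subgroup.mem_bot] at hcen; exact absurd hcen hg
      · exact h
    letI : CommGroup G := Group.commGroupOfCenterEqTop hctop
    exact IsSimpleGroup.prime_card
  · exfalso
    have htriv : ∀ x, ρ x = 1 := by
      intro x
      have : x ∈ MonoidHom.ker (ρ : G →* End ℂ (Fin n → ℂ)) := by rw [htop]; trivial
      exact this
    have h1 := finrank_eq_one_of_trivial ρ htriv
    apply hne
    funext x
    change LinearMap.trace ℂ _ (ρ x) = 1
    rw [htriv x, LinearMap.trace_one, h1]; simp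

theorem exists_dvd_over {G : Type*} [Group G] [Finite G] (N : Subgroup G) [hN : N.Normal]
    (θ : IrrCharacter N) :
    ∃ χ : IrrCharacter G, charDegree (θ : N → ℂ) ∣ charDegree (χ : G → ℂ) := by
  classical
  cases nonempty_fintype G
  obtain ⟨χ, hχ⟩ := exists_irr_over N θ.2
  refine ⟨χ, ?_⟩
  have h := S0174.result N hN χ χ.2 θ θ.2 hχ
  obtain ⟨k, hk⟩ := classInner_char_nat (isCharacter_restrict (isCharacter_of_irr χ.2) N)
    (isCharacter_of_irr θ.2)
  rw [hk] at h
  obtain ⟨S, hS⟩ : ∃ S : Set (N → ℂ), S = {ψ : N → ℂ | ∃ g : G, ψ = fun n : N =>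
      (θ : N → ℂ) ⟨g * n * g⁻¹, hN.conj_mem n n.2 g⟩} := ⟨_, rfl⟩
  rw [← hS] at h
  have hfin : S.Finite := by
    rw [hS]
    refine (Set.finite_range (fun g : G => fun n : N =>
      (θ : N → ℂ) ⟨g * n * g⁻¹, hN.conj_mem n n.2 g⟩)).subset ?_
    rintro ψ ⟨g, rfl⟩
    exact ⟨g, rfl⟩
  have h1 := congrFun h 1
  have h2 : (∑ᶠ ψ ∈ S, ψ) 1 = ∑ᶠ ψ ∈ S, ψ 1 :=
    (Pi.evalAddMonoidHom (fun _ : N => ℂ) 1).map_finsum_mem _ hfin
  have h3 : ∑ᶠ ψ ∈ S, ψ 1 = ∑ᶠ ψ ∈ S, (θ : N → ℂ) 1 := by
    refine finsum_mem_congr rfl ?_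
    intro ψ hψ
    rw [hS] at hψ
    obtain ⟨g, rfl⟩ := hψ
    show (θ : N → ℂ) _ = _
    apply congrArg
    apply Subtype.ext
    simp
  have h4 : ∑ᶠ ψ ∈ S, (θ : N → ℂ) 1 = (S.ncard : ℂ) * (θ : N → ℂ) 1 := by
    rw [finsum_mem_eq_finite_toFinset_sum _ hfin, Finset.sum_const, nsmul_eq_mul,
      Set.ncard_eq_toFinset_card S hfin]
  rw [Pi.smul_apply, h2, h3, h4, smul_eq_mul, Subgroup.coe_one] at h1
  have h5 : ((charDegree (χ : G → ℂ) : ℕ) : ℂ) =
      ((charDegree (θ : N → ℂ) * (k * S.ncard) : ℕ) : ℂ) := by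
    push_cast
    rw [charDegree_cast_irr, charDegree_cast_irr, h1]
    ring
  exact ⟨k * S.ncard, by exact_mod_cast h5⟩

theorem solvable_of_two_primes (p q : ℕ) (hp : p.Prime) (hq : q.Prime) :
    ∀ (n : ℕ) (G : Type u) [Group G] [Finite G], Nat.card G = n →
      (∀ (χ : IrrCharacter G) (r : ℕ), r.Prime → r ∣ charDegree (χ : G → ℂ) → r = p ∨ r = q) →
      Group.IsSolvable G := by
  intro n
  induction n using Nat.strong_induction_on with
  | _ n ih =>
  intro G _ _ hcard hdeg
  rcases subsingleton_or_nontrivial G with hsub | hnt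
  · exact inferInstance
  by_cases hsimple : ∃ N : Subgroup G, N.Normal ∧ N ≠ ⊥ ∧ N ≠ ⊤
  · obtain ⟨N, hN, hbot, htop⟩ := hsimple
    have hmul : Nat.card N * N.index = n := hcard ▸ Subgroup.card_mul_index N
    have hnpos : 0 < n := hcard ▸ Nat.card_pos
    have h1 : 1 < Nat.card N := by
      rw [Finite.one_lt_card_iff_nontrivial]
      exact (Subgroup.nontrivial_iff_ne_bot N).mpr hbot
    have h2 : 1 < N.index := by
      have h0 : N.index ≠ 0 := Subgroup.index_ne_zero_of_finite
      have h1' : N.index ≠ 1 := fun h => htop (Subgroup.index_eq_one.mp h)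
      omega
    have hlt1 : Nat.card N < n := by
      rw [← hmul]; exact lt_mul_of_one_lt_right (by omega) h2
    have hlt2 : N.index < n := by
      rw [← hmul]; exact lt_mul_of_one_lt_left (by omega) h1
    haveI s1 : Group.IsSolvable N := ih _ hlt1 N rfl (fun θ r hr hrd => by
      obtain ⟨χ, hχ⟩ := exists_dvd_over N θ
      exact hdeg χ r hr (hrd.trans hχ))
    haveI s2 : Group.IsSolvable (G ⧸ N) :=
      ih _ hlt2 (G ⧸ N) (by rw [Subgroup.index]) (fun β r hr hrd => by
        have h3 : charDegree (fun g : G => (β : G ⧸ N → ℂ) (QuotientGroup.mk' N g)) =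
            charDegree (β : G ⧸ N → ℂ) := by
          unfold charDegree
          show ⌊((β : G ⧸ N → ℂ) (QuotientGroup.mk' N 1)).re⌋₊ = _
          rw [map_one]
        exact hdeg ⟨fun g => (β : G ⧸ N → ℂ) (QuotientGroup.mk' N g),
          isIrrCharacter_comp_of_surjective β.2 (QuotientGroup.mk' N)
            (QuotientGroup.mk'_surjective N)⟩ r hr (by rw [h3]; exact hrd))
    refine Group.isSolvable_of_ker_le_range N.subtype (QuotientGroup.mk' N) ?_
    rw [QuotientGroup.ker_mk', Subgroup.range_subtype]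
  · push Not at hsimple
    haveI : IsSimpleGroup G := ⟨fun N hN => by
      by_cases h : N = ⊥
      · exact Or.inl h
      · exact Or.inr (hsimple N hN h)⟩
    have hcd : ∀ (m : ℕ) (ρ : Representation ℂ G (Fin m → ℂ)) (hirr : ρ.IsIrreducible),
        charDegree ρ.character = m := by
      intro m ρ hirr
      have h1 : ((charDegree ρ.character : ℕ) : ℂ) = ρ.character 1 :=
        charDegree_cast_irr (⟨ρ.character, m, ρ, hirr, rfl⟩ : IrrCharacter G)
      rw [Representation.char_one] at h1
      simp only [Module.finrank_fintype_fun_eq_card, Fintype.card_fin] at h1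
      exact_mod_cast h1
    have hdeg' : ∀ (m : ℕ) (ρ : Representation ℂ G (Fin m → ℂ)), ρ.IsIrreducible →
        ∀ r : ℕ, r.Prime → r ∣ m → r = p ∨ r = q := by
      intro m ρ hirr r hr hrm
      exact hdeg ⟨ρ.character, m, ρ, hirr, rfl⟩ r hr (by rw [hcd m ρ hirr]; exact hrm)
    have hprime : (Nat.card G).Prime := by
      by_cases hpG : p ∣ Nat.card G
      · haveI : Fact p.Prime := ⟨hp⟩
        obtain ⟨P⟩ : Nonempty (Sylow p G) := inferInstance
        have hPbot : (P : Subgroup G) ≠ ⊥ := P.ne_bot_of_dvd_card hpG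
        haveI : Nontrivial (P : Subgroup G) := (Subgroup.nontrivial_iff_ne_bot _).mpr hPbot
        haveI : Nontrivial (Subgroup.center (P : Subgroup G)) := P.2.center_nontrivial
        obtain ⟨⟨⟨g, hgP⟩, hgc⟩, hz⟩ := exists_ne (1 : Subgroup.center (P : Subgroup G))
        have hg : g ≠ 1 := by
          intro h
          apply hz
          apply Subtype.ext
          apply Subtype.ext
          exact h
        have hle : (P : Subgroup G) ≤ Subgroup.centralizer {g} := by
          intro u hu
          rw [Subgroup.mem_centralizer_singleton_iff]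
          have := Subgroup.mem_center_iff.1 hgc ⟨u, hu⟩
          exact congrArg Subtype.val this
        have hnd : ¬ p ∣ (Subgroup.centralizer ({g} : Set G)).index := fun h3 =>
          P.not_dvd_index (h3.trans (Subgroup.index_dvd_of_le hle))
        apply prime_card_of_coprime_class q hq g hg
        intro m ρ hirr hqm
        apply Nat.coprime_of_dvd
        intro r hr hrm hrk
        rcases hdeg' m ρ hirr r hr hrm with rfl | rfl
        · exact hnd hrk
        · exact hqm hrm
      · obtain ⟨g, hg⟩ := exists_ne (1 : G)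
        apply prime_card_of_coprime_class q hq g hg
        intro m ρ hirr hqm
        have hm1 : m = 1 := by
          by_contra hm1
          obtain ⟨r, hr, hrm⟩ := Nat.exists_prime_and_dvd hm1
          rcases hdeg' m ρ hirr r hr hrm with rfl | rfl
          · apply hpG
            have h4 := charDegree_dvd_card (⟨ρ.character, m, ρ, hirr, rfl⟩ : IrrCharacter G)
            rw [hcd m ρ hirr] at h4
            exact hrm.trans h4
          · exact hqm hrm
        rw [hm1]
        exact Nat.coprime_one_left _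
    haveI : Fact (Nat.card G).Prime := ⟨hprime⟩
    have : IsPGroup (Nat.card G) G := IsPGroup.of_card (n := 1) (by rw [pow_one])
    haveI := this.isNilpotent
    infer_instance

theorem main {G : Type u} [Group G] [Finite G] (hG : ¬ Group.IsSolvable G) :
    ∃ p q r : ℕ, p ≠ q ∧ q ≠ r ∧ p ≠ r ∧ p ∈ degreePrimes G ∧ q ∈ degreePrimes G ∧
      r ∈ degreePrimes G := by
  by_contra hcon
  push Not at hcon
  apply hG
  have hmem : ∀ (χ : IrrCharacter G) (r : ℕ), r.Prime → r ∣ charDegree (χ : G → ℂ) →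
      r ∈ degreePrimes G := fun χ r hr hrd => ⟨hr, _, ⟨χ, rfl⟩, hrd⟩
  by_cases h1 : ∃ p, p ∈ degreePrimes G
  · obtain ⟨p, hp⟩ := h1
    by_cases h2 : ∃ q, q ∈ degreePrimes G ∧ q ≠ p
    · obtain ⟨q, hq, hqp⟩ := h2
      refine solvable_of_two_primes p q hp.1 hq.1 _ G rfl fun χ r hr hrd => ?_
      by_contra h3
      push Not at h3
      exact hcon p q r hqp.symm (Ne.symm h3.2) (Ne.symm h3.1) hp hq (hmem χ r hr hrd)
    · push Not at h2
      exact solvable_of_two_primes p p hp.1 hp.1 _ G rfl fun χ r hr hrd =>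
        Or.inl (h2 r (hmem χ r hr hrd))
  · push Not at h1
    exact solvable_of_two_primes 2 3 Nat.prime_two Nat.prime_three _ G rfl fun χ r hr hrd =>
      absurd (hmem χ r hr hrd) (h1 r)

end Cfsg.Agent.Lib.Helper24.ThreeDegPrimes
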