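import Mathlib
import Cfsg.Agent.Lib.Helper24.ThreeDegPrimes
import Cfsg.Agent.Lib.Helper24.DetDiag
import Cfsg.Agent.H25.Codeg
import Cfsg.Agent.S4465

/-! A finite group all of whose nonlinear irreducible characters have prime degree is solvable. -/

set_option autoImplicit false

namespace Cfsg.Agent.Lib.Helper24.PrimeDeg

open Cfsg Cfsg.Agent Cfsg.Agent.CharLib Cfsg.Agent.Lib.Helper23 Module
open Cfsg.Agent.Lib.Helper24.ThreeDegPrimes
open scoped ComplexConjugate

universe u

theorem prime_card_of_ne_zero {G : Type*} [Group G] [Finite G] [IsSimpleGroup G]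
    (g : G) (hg : g ≠ 1) (n : ℕ) (ρ : Representation ℂ G (Fin n → ℂ)) (hirr : ρ.IsIrreducible)
    (hne : ρ.character ≠ (fun _ => (1 : ℂ)))
    (hcop' : Nat.Coprime n (Subgroup.centralizer ({g} : Set G)).index)
    (hg0 : ρ.character g ≠ 0) : (Nat.card G).Prime := by
  classical
  haveI := hirr
  have hfr : finrank ℂ (Fin n → ℂ) = n := by simp
  have hcop : Nat.Coprime (finrank ℂ (Fin n → ℂ)) (Subgroup.centralizer ({g} : Set G)).index := by
    rw [hfr]
    exact hcop'
  have hnorm := (character_eq_zero_or_norm_eq ρ g hcop).resolve_left hg0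
  obtain ⟨ω, hω⟩ := (norm_character_eq_iff ρ g).mp hnorm
  rcases (MonoidHom.normal_ker (ρ : G →* End ℂ (Fin n → ℂ))).eq_bot_or_eq_top with hbot | htop
  · have hinj : Function.Injective ρ := (MonoidHom.ker_eq_bot_iff _).mp hbot
    have hcen : g ∈ Subgroup.center G := by
      rw [Subgroup.mem_center_iff]
      intro y
      apply hinj
      rw [map_mul, map_mul, hω]
      ext v
      simp
    have hctop : Subgroup.center G = ⊤ := by
      rcases (inferInstance : (Subgroup.center G).Normal).eq_bot_or_eq_top with h | h
      · rw [h, Subgroup.mem_bot] at hcen; exact absurd hcen hg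
      · exact h
    letI : CommGroup G := Group.commGroupOfCenterEqTop hctop
    exact IsSimpleGroup.prime_card
  · exfalso
    have htriv : ∀ x, ρ x = 1 := by
      intro x
      have : x ∈ MonoidHom.ker (ρ : G →* End ℂ (Fin n → ℂ)) := by rw [htop]; trivial
      exact this
    have h1 := finrank_eq_one_of_trivial ρ htriv
    apply hne
    funext x
    change LinearMap.trace ℂ _ (ρ x) = 1
    rw [htriv x, LinearMap.trace_one, h1]; simp

theorem charDegree_rep {G : Type*} [Group G] [Finite G] (m : ℕ)
    (ρ : Representation ℂ G (Fin m → ℂ)) (hirr : ρ.IsIrreducible) :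
    charDegree ρ.character = m := by
  have h1 : ((charDegree ρ.character : ℕ) : ℂ) = ρ.character 1 :=
    charDegree_cast_irr (⟨ρ.character, m, ρ, hirr, rfl⟩ : IrrCharacter G)
  rw [Representation.char_one] at h1
  simp only [Module.finrank_fintype_fun_eq_card, Fintype.card_fin] at h1
  exact_mod_cast h1

theorem prime_card_of_deg_two {G : Type*} [Group G] [Finite G] [IsSimpleGroup G]
    (ρ : Representation ℂ G (Fin 2 → ℂ)) (hirr : ρ.IsIrreducible) : (Nat.card G).Prime := by
  classical
  have h2G : 2 ∣ Nat.card G := by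
    have h4 := charDegree_dvd_card (⟨ρ.character, 2, ρ, hirr, rfl⟩ : IrrCharacter G)
    rwa [charDegree_rep 2 ρ hirr] at h4
  haveI : Fact (Nat.Prime 2) := ⟨Nat.prime_two⟩
  obtain ⟨P⟩ : Nonempty (Sylow 2 G) := inferInstance
  have hPbot : (P : Subgroup G) ≠ ⊥ := P.ne_bot_of_dvd_card h2G
  haveI : Nontrivial (P : Subgroup G) := (Subgroup.nontrivial_iff_ne_bot _).mpr hPbot
  haveI : Nontrivial (Subgroup.center (P : Subgroup G)) := P.2.center_nontrivial
  have hZ : IsPGroup 2 (Subgroup.center (P : Subgroup G)) := P.2.to_subgroup _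
  have h2Z : 2 ∣ Nat.card (Subgroup.center (P : Subgroup G)) := by
    obtain ⟨k, hk⟩ := IsPGroup.iff_card.1 hZ
    rcases Nat.eq_zero_or_pos k with rfl | hk0
    · exfalso
      have : 1 < Nat.card (Subgroup.center (P : Subgroup G)) := Finite.one_lt_card
      rw [hk] at this
      simp at this
    · rw [hk]; exact dvd_pow_self 2 hk0.ne'
  obtain ⟨⟨⟨g, hgP⟩, hgc⟩, hz⟩ := exists_prime_orderOf_dvd_card' 2 h2Z
  have hord : orderOf g = 2 := by
    rw [← hz]
    rw [← Subgroup.orderOf_coe, ← Subgroup.orderOf_coe]
  have hg : g ≠ 1 := by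
    intro h
    rw [h, orderOf_one] at hord
    omega
  have hle : (P : Subgroup G) ≤ Subgroup.centralizer {g} := by
    intro u hu
    rw [Subgroup.mem_centralizer_singleton_iff]
    have := Subgroup.mem_center_iff.1 hgc ⟨u, hu⟩
    exact congrArg Subtype.val this
  have hnd : ¬ 2 ∣ (Subgroup.centralizer ({g} : Set G)).index := fun h3 =>
    P.not_dvd_index (h3.trans (Subgroup.index_dvd_of_le hle))
  have hne : ρ.character ≠ (fun _ => (1 : ℂ)) := by
    intro h
    have := congrFun h 1
    rw [Representation.char_one] at this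
    simp at this
  by_cases hg0 : ρ.character g = 0
  · have hχc : IsCharacter G ρ.character := ⟨2, ρ, rfl⟩
    have hdet := detChar_of_vanish hχc g 2 1 even_two two_pos hord
      (by rw [Representation.char_one]; simp) (by
        intro i h0 h1
        have : i = 1 := by omega
        rw [this, pow_one]; exact hg0)
    obtain ⟨D, hD⟩ := H6.exists_detHom hχc
    have hDg : D g ≠ 1 := by
      intro h
      have h1 := hD g
      rw [h, hdet] at h1
      norm_num at h1
    rcases (MonoidHom.normal_ker D).eq_bot_or_eq_top with hbot | htop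
    · have hinj : Function.Injective D := (MonoidHom.ker_eq_bot_iff _).mp hbot
      letI : CommGroup G := { (inferInstance : Group G) with
        mul_comm := fun a b => hinj (by rw [map_mul, map_mul, mul_comm]) }
      exact IsSimpleGroup.prime_card
    · exfalso
      apply hDg
      have : g ∈ D.ker := by rw [htop]; trivial
      exact this
  · exact prime_card_of_ne_zero g hg 2 ρ hirr hne
      ((Nat.Prime.coprime_iff_not_dvd Nat.prime_two).2 hnd) hg0

theorem solvable_of_prime_degrees :
    ∀ (n : ℕ) (G : Type u) [Group G] [Finite G], Nat.card G = n →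
      (∀ χ : IrrCharacter G, charDegree (χ : G → ℂ) ≠ 1 → (charDegree (χ : G → ℂ)).Prime) →
      Group.IsSolvable G := by
  intro n
  induction n using Nat.strong_induction_on with
  | _ n ih =>
  intro G _ _ hcard hdeg
  rcases subsingleton_or_nontrivial G with hsub | hnt
  · exact inferInstance
  by_cases hsimple : ∃ N : Subgroup G, N.Normal ∧ N ≠ ⊥ ∧ N ≠ ⊤
  · obtain ⟨N, hN, hbot, htop⟩ := hsimple
    have hmul : Nat.card N * N.index = n := hcard ▸ Subgroup.card_mul_index N
    have hnpos : 0 < n := hcard ▸ Nat.card_pos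
    have h1 : 1 < Nat.card N := by
      rw [Finite.one_lt_card_iff_nontrivial]
      exact (Subgroup.nontrivial_iff_ne_bot N).mpr hbot
    have h2 : 1 < N.index := by
      have h0 : N.index ≠ 0 := Subgroup.index_ne_zero_of_finite
      have h1' : N.index ≠ 1 := fun h => htop (Subgroup.index_eq_one.mp h)
      omega
    have hlt1 : Nat.card N < n := by
      rw [← hmul]; exact lt_mul_of_one_lt_right (by omega) h2
    have hlt2 : N.index < n := by
      rw [← hmul]; exact lt_mul_of_one_lt_left (by omega) h1
    haveI s1 : Group.IsSolvable N := ih _ hlt1 N rfl (fun θ hθ => by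
      obtain ⟨χ, hχ⟩ := exists_dvd_over N θ
      have hχ1 : charDegree (χ : G → ℂ) ≠ 1 := by
        intro h
        rw [h] at hχ
        exact hθ (Nat.dvd_one.1 hχ)
      have hp := hdeg χ hχ1
      rcases (Nat.dvd_prime hp).1 hχ with h | h
      · exact absurd h hθ
      · rw [h]; exact hp)
    haveI s2 : Group.IsSolvable (G ⧸ N) :=
      ih _ hlt2 (G ⧸ N) (by rw [Subgroup.index]) (fun β hβ => by
        have h3 : charDegree (fun g : G => (β : G ⧸ N → ℂ) (QuotientGroup.mk' N g)) =
            charDegree (β : G ⧸ N → ℂ) := by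
          unfold charDegree
          show ⌊((β : G ⧸ N → ℂ) (QuotientGroup.mk' N 1)).re⌋₊ = _
          rw [map_one]
        have := hdeg ⟨fun g => (β : G ⧸ N → ℂ) (QuotientGroup.mk' N g),
          isIrrCharacter_comp_of_surjective β.2 (QuotientGroup.mk' N)
            (QuotientGroup.mk'_surjective N)⟩ (by rw [h3]; exact hβ)
        rwa [h3] at this)
    refine Group.isSolvable_of_ker_le_range N.subtype (QuotientGroup.mk' N) ?_
    rw [QuotientGroup.ker_mk', Subgroup.range_subtype]
  · push Not at hsimple
    haveI : IsSimpleGroup G := ⟨fun N hN => by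
      by_cases h : N = ⊥
      · exact Or.inl h
      · exact Or.inr (hsimple N hN h)⟩
    have hdeg' : ∀ (m : ℕ) (ρ : Representation ℂ G (Fin m → ℂ)), ρ.IsIrreducible →
        m ≠ 1 → m.Prime := by
      intro m ρ hirr hm
      have := hdeg ⟨ρ.character, m, ρ, hirr, rfl⟩ (by rw [charDegree_rep m ρ hirr]; exact hm)
      rwa [charDegree_rep m ρ hirr] at this
    have hprime : (Nat.card G).Prime := by
      by_cases hlin : ∀ χ : IrrCharacter G, charDegree (χ : G → ℂ) = 1
      · obtain ⟨g, hg⟩ := exists_ne (1 : G)
        apply prime_card_of_coprime_class 2 Nat.prime_two g hg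
        intro m ρ hirr _
        have := hlin ⟨ρ.character, m, ρ, hirr, rfl⟩
        rw [charDegree_rep m ρ hirr] at this
        rw [this]
        exact Nat.coprime_one_left _
      · push Not at hlin
        have hex : ∃ d : ℕ, ∃ χ : IrrCharacter G, charDegree (χ : G → ℂ) ≠ 1 ∧
            charDegree (χ : G → ℂ) = d := by
          obtain ⟨χ, hχ⟩ := hlin
          exact ⟨_, χ, hχ, rfl⟩
        obtain ⟨φ, hφ1, hφ⟩ := Nat.find_spec hex
        set p₀ := Nat.find hex with hp₀def
        have hmin : ∀ χ : IrrCharacter G, charDegree (χ : G → ℂ) ≠ 1 →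
            p₀ ≤ charDegree (χ : G → ℂ) := fun χ hχ => Nat.find_min' hex ⟨χ, hχ, rfl⟩
        have hp₀ : p₀.Prime := hφ ▸ hdeg φ hφ1
        by_cases h2 : p₀ = 2
        · obtain ⟨m, ρ, hirr, hch⟩ := φ.2
          have hm : m = 2 := by
            rw [← charDegree_rep m ρ hirr, hch, hφ, h2]
          subst hm
          exact prime_card_of_deg_two ρ hirr
        · have hfaith : ∀ g : G, (φ : G → ℂ) g = (φ : G → ℂ) 1 → g = 1 := by
            intro g hg
            rcases (H25.kerSub_normal φ).eq_bot_or_eq_top with hb | ht
            · have : g ∈ H25.kerSub φ := hg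
              rw [hb, Subgroup.mem_bot] at this
              exact this
            · exfalso
              apply hφ1
              rw [H25.eq_one_of_kerSub_eq_top φ ht]
              unfold charDegree
              simp
          obtain ⟨A, hAc, -, hA2⟩ := S4465.result (φ : G → ℂ) (isCharacter_of_irr φ.2) hfaith p₀ hφ
          obtain ⟨x, hx, hAx⟩ : ∃ x : G, x ≠ 1 ∧ A ≤ Subgroup.centralizer ({x} : Set G) := by
            by_cases hA : A = ⊥
            · obtain ⟨g, hg⟩ := exists_ne (1 : G)
              exact ⟨g, hg, by rw [hA]; exact bot_le⟩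
            · obtain ⟨⟨x, hxA⟩, hx'⟩ := Subgroup.ne_bot_iff_exists_ne_one.1 hA
              have hx : x ≠ 1 := fun h => hx' (Subtype.ext h)
              refine ⟨x, hx, fun a ha => ?_⟩
              rw [Subgroup.mem_centralizer_singleton_iff]
              exact hAc a ha x hxA
          apply prime_card_of_coprime_class p₀ hp₀ x hx
          intro m ρ hirr hpm
          by_cases hm1 : m = 1
          · rw [hm1]; exact Nat.coprime_one_left _
          · have hm := hdeg' m ρ hirr hm1
            have hge : p₀ ≤ m := by
              have := hmin ⟨ρ.character, m, ρ, hirr, rfl⟩ (by rw [charDegree_rep m ρ hirr]; exact hm1)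
              rwa [charDegree_rep m ρ hirr] at this
            have hne : m ≠ p₀ := fun h => hpm (h ▸ dvd_rfl)
            rw [Nat.Prime.coprime_iff_not_dvd hm]
            intro hdvd
            have h5 := hA2 m hm (hdvd.trans (Subgroup.index_dvd_of_le hAx))
            have h6 : m = p₀ + 1 := by omega
            rcases hp₀.eq_two_or_odd' with h | ⟨a, ha⟩
            · exact h2 h
            · rcases hm.eq_two_or_odd' with h | ⟨b, hb⟩
              · have := hp₀.two_le
                omega
              · omega
    haveI : Fact (Nat.card G).Prime := ⟨hprime⟩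
    have : IsPGroup (Nat.card G) G := IsPGroup.of_card (n := 1) (by rw [pow_one])
    haveI := this.isNilpotent
    infer_instance

end Cfsg.Agent.Lib.Helper24.PrimeDeg
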