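import Mathlib
import Cfsg.Agent.Lib.Helper24.PrimeDeg
import Cfsg.Agent.Lib.Helper10.LinIrr
import Cfsg.Agent.H25.Codeg2
import Cfsg.Agent.H25.RealExt
import Cfsg.Agent.H6.CliffInv

/-! Prime nonlinear degrees: at most two primes occur. -/

set_option autoImplicit false

namespace Cfsg.Agent.Lib.Helper24.PrimeDeg2

open Cfsg Cfsg.Agent Cfsg.Agent.CharLib Cfsg.Agent.Lib.Helper23 Module
open scoped ComplexConjugate

universe u

theorem dvd_of_constituent {G : Type*} [Group G] [Fintype G] (N : Subgroup G) [hN : N.Normal]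
    [Fintype N] (χ : IrrCharacter G) (θ : IrrCharacter N)
    (hχ : classInner (fun n : N => (χ : G → ℂ) n) (θ : N → ℂ) ≠ 0) :
    charDegree (θ : N → ℂ) ∣ charDegree (χ : G → ℂ) := by
  classical
  have h := S0174.result N hN χ χ.2 θ θ.2 hχ
  obtain ⟨k, hk⟩ := classInner_char_nat (isCharacter_restrict (isCharacter_of_irr χ.2) N)
    (isCharacter_of_irr θ.2)
  rw [hk] at h
  obtain ⟨S, hS⟩ : ∃ S : Set (N → ℂ), S = {ψ : N → ℂ | ∃ g : G, ψ = fun n : N =>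
      (θ : N → ℂ) ⟨g * n * g⁻¹, hN.conj_mem n n.2 g⟩} := ⟨_, rfl⟩
  rw [← hS] at h
  have hfin : S.Finite := by
    rw [hS]
    refine (Set.finite_range (fun g : G => fun n : N =>
      (θ : N → ℂ) ⟨g * n * g⁻¹, hN.conj_mem n n.2 g⟩)).subset ?_
    rintro ψ ⟨g, rfl⟩
    exact ⟨g, rfl⟩
  have h1 := congrFun h 1
  have h2 : (∑ᶠ ψ ∈ S, ψ) 1 = ∑ᶠ ψ ∈ S, ψ 1 :=
    (Pi.evalAddMonoidHom (fun _ : N => ℂ) 1).map_finsum_mem _ hfin
  have h3 : ∑ᶠ ψ ∈ S, ψ 1 = ∑ᶠ ψ ∈ S, (θ : N → ℂ) 1 := by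
    refine finsum_mem_congr rfl ?_
    intro ψ hψ
    rw [hS] at hψ
    obtain ⟨g, rfl⟩ := hψ
    show (θ : N → ℂ) _ = _
    apply congrArg
    apply Subtype.ext
    simp
  have h4 : ∑ᶠ ψ ∈ S, (θ : N → ℂ) 1 = (S.ncard : ℂ) * (θ : N → ℂ) 1 := by
    rw [finsum_mem_eq_finite_toFinset_sum _ hfin, Finset.sum_const, nsmul_eq_mul,
      Set.ncard_eq_toFinset_card S hfin]
  rw [Pi.smul_apply, h2, h3, h4, smul_eq_mul, Subgroup.coe_one] at h1
  have h5 : ((charDegree (χ : G → ℂ) : ℕ) : ℂ) =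
      ((charDegree (θ : N → ℂ) * (k * S.ncard) : ℕ) : ℂ) := by
    push_cast
    rw [charDegree_cast_irr, charDegree_cast_irr, h1]
    ring
  exact ⟨k * S.ncard, by exact_mod_cast h5⟩

theorem twist_pow {N : Type*} [Group N] [Finite N] (μ : N →* ℂˣ) {θ : N → ℂ}
    (hθ : IsCharacter N θ) {d : ℕ} (hd : θ 1 = d)
    (h : ∀ n, ((μ n : ℂˣ) : ℂ) * θ n = θ n) (n : N) : μ n ^ d = 1 := by
  have h1 := H6.detChar_twist μ hθ hd
  have h2 : (fun g => ((μ g : ℂˣ) : ℂ) * θ g) = θ := funext h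
  rw [h2] at h1
  obtain ⟨D, hD⟩ := H6.exists_detHom hθ
  have h3 := congrFun h1 n
  rw [← hD n] at h3
  have h4 : ((D n : ℂˣ) : ℂ) ≠ 0 := (D n).ne_zero
  have h5 : ((μ n : ℂˣ) : ℂ) ^ d = 1 := by
    have : ((μ n : ℂˣ) : ℂ) ^ d * ((D n : ℂˣ) : ℂ) = 1 * ((D n : ℂˣ) : ℂ) := by
      rw [one_mul]; exact h3.symm
    exact mul_right_cancel₀ h4 this
  apply Units.ext
  rw [Units.val_pow_eq_pow_val, h5]
  rfl

theorem orderOf_eq {G : Type*} [Group G] [Finite G] (β : G →* ℂˣ) (s : ℕ) (hs : s.Prime)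
    (hidx : β.ker.index = s) (g : G) (hg : β g ≠ 1) : orderOf (β g) = s := by
  have h1 : g ^ β.ker.index ∈ β.ker := Subgroup.pow_index_mem _ _
  rw [hidx, MonoidHom.mem_ker, map_pow] at h1
  rcases (Nat.dvd_prime hs).1 (orderOf_dvd_of_pow_eq_one h1) with h | h
  · exact absurd (orderOf_eq_one_iff.1 h) hg
  · exact h

theorem dvd_of_vanish {G : Type*} [Group G] [Finite G] (β : G →* ℂˣ) (s : ℕ) (hs : s.Prime)
    (hidx : β.ker.index = s) (ξ : IrrCharacter G)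
    (hv : ∀ g, β g ≠ 1 → (ξ : G → ℂ) g = 0) : s ∣ charDegree (ξ : G → ℂ) := by
  have hex : ∃ g, β g ≠ 1 := by
    by_contra hcon
    push Not at hcon
    have : β.ker = ⊤ := by
      rw [eq_top_iff]; intro g _; exact hcon g
    rw [this, Subgroup.index_top] at hidx
    exact hs.one_lt.ne hidx
  obtain ⟨g, hg⟩ := hex
  have h1 := twist_pow β (isCharacter_of_irr ξ.2) (charDegree_cast_irr ξ).symm (fun n => by
    by_cases hn : β n = 1
    · rw [hn]; simp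
    · rw [hv n hn]; simp) g
  rw [← orderOf_eq β s hs hidx g hg]
  exact orderOf_dvd_of_pow_eq_one h1

theorem irr_restrict {G : Type*} [Group G] [Fintype G] (β : G →* ℂˣ) (s : ℕ) (hs : s.Prime)
    (hidx : β.ker.index = s) [Fintype β.ker] (ξ : IrrCharacter G) (g₀ : G) (h1 : β g₀ ≠ 1)
    (h2 : (ξ : G → ℂ) g₀ ≠ 0) : IsIrrCharacter β.ker (fun n : β.ker => (ξ : G → ℂ) n) := by
  classical
  apply isIrrCharacter_of_norm_one (isCharacter_restrict (isCharacter_of_irr ξ.2) _)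
  set w : G → ℂ := fun g => (ξ : G → ℂ) g * conj ((ξ : G → ℂ) g) with hw
  have hG0 : (Nat.card G : ℂ) ≠ 0 := by exact_mod_cast Nat.card_pos.ne'
  have hN0 : (Nat.card β.ker : ℂ) ≠ 0 := by exact_mod_cast Nat.card_pos.ne'
  have hsum0 : ∑ g, w g = Nat.card G := by
    have := classInner_irr_self ξ.2
    rw [classInner_def] at this
    field_simp at this
    exact this
  have hsumj : ∀ j, 0 < j → j < s → ∑ g, ((β g : ℂˣ) : ℂ) ^ j * w g = 0 := by
    intro j hj0 hjs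
    have hne : (fun g => (((β ^ j) g : ℂˣ) : ℂ) * (ξ : G → ℂ) g) ≠ (ξ : G → ℂ) := by
      intro h
      have h3 := congrFun h g₀
      have h4 : (((β ^ j) g₀ : ℂˣ) : ℂ) = 1 := by
        have : (((β ^ j) g₀ : ℂˣ) : ℂ) * (ξ : G → ℂ) g₀ = 1 * (ξ : G → ℂ) g₀ := by
          rw [one_mul]; exact h3
        exact mul_right_cancel₀ h2 this
      have h5 : (β g₀) ^ j = 1 := by
        apply Units.ext
        rw [← MonoidHom.pow_apply]
        exact h4
      have h6 := orderOf_dvd_of_pow_eq_one h5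
      rw [orderOf_eq β s hs hidx g₀ h1] at h6
      exact absurd (Nat.le_of_dvd hj0 h6) (by omega)
    have := classInner_irr_ne (H25.isIrrCharacter_hom_mul (β ^ j) ξ.2) ξ.2 hne
    rw [classInner_def] at this
    have h3 := (mul_eq_zero.1 this).resolve_left (inv_ne_zero hG0)
    rw [← h3]
    refine Finset.sum_congr rfl fun g _ => ?_
    rw [MonoidHom.pow_apply, Units.val_pow_eq_pow_val, hw]
    ring
  have hgeom : ∀ g, ∑ j ∈ Finset.range s, ((β g : ℂˣ) : ℂ) ^ j = if β g = 1 then (s : ℂ) else 0 := by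
    intro g
    split_ifs with hg
    · rw [hg]; simp
    · have hx : ((β g : ℂˣ) : ℂ) ≠ 1 := fun h => hg (Units.ext h)
      have hxs : ((β g : ℂˣ) : ℂ) ^ s = 1 := by
        have := pow_orderOf_eq_one (β g)
        rw [orderOf_eq β s hs hidx g hg] at this
        rw [← Units.val_pow_eq_pow_val, this]; rfl
      rw [geom_sum_eq hx, hxs]; simp
  have htot : ∑ j ∈ Finset.range s, ∑ g, ((β g : ℂˣ) : ℂ) ^ j * w g = Nat.card G := by
    rw [Finset.sum_eq_single 0]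
    · simpa using hsum0
    · intro j hj hj0
      exact hsumj j (Nat.pos_of_ne_zero hj0) (Finset.mem_range.1 hj)
    · intro h
      exact absurd (Finset.mem_range.2 hs.pos) h
  rw [Finset.sum_comm] at htot
  have h3 : ∑ g, (if β g = 1 then (s : ℂ) else 0) * w g = Nat.card G := by
    rw [← htot]
    refine Finset.sum_congr rfl fun g _ => ?_
    rw [← hgeom g, Finset.sum_mul]
  have h4 : ∑ n : β.ker, w n = ∑ g, (if β g = 1 then w g else 0) := by
    rw [← Finset.sum_filter]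
    exact (Finset.sum_subtype (Finset.univ.filter fun g => β g = 1)
      (fun x => by simp [MonoidHom.mem_ker]) w).symm
  have h5 : (s : ℂ) * ∑ n : β.ker, w n = Nat.card G := by
    rw [h4, ← h3, Finset.mul_sum]
    refine Finset.sum_congr rfl fun g _ => ?_
    split_ifs <;> simp
  have h6 : (Nat.card G : ℂ) = (Nat.card β.ker : ℂ) * s := by
    rw [← hidx]
    exact_mod_cast (Subgroup.card_mul_index β.ker).symm
  rw [classInner_def]
  have hs0 : (s : ℂ) ≠ 0 := by exact_mod_cast hs.ne_zero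
  have h7 : ∑ n : β.ker, w n = Nat.card β.ker := by
    have : (s : ℂ) * ∑ n : β.ker, w n = s * Nat.card β.ker := by rw [h5, h6]; ring
    exact mul_left_cancel₀ hs0 this
  show (Nat.card β.ker : ℂ)⁻¹ * ∑ n : β.ker, w n = 1
  rw [h7, inv_mul_cancel₀ hN0]

theorem sum_ker {G : Type*} [Group G] [Fintype G] (β : G →* ℂˣ) [Fintype β.ker] (w : G → ℂ)
    (hw : ∀ g, β g ≠ 1 → w g = 0) : ∑ n : β.ker, w n = ∑ g, w g := by
  classical
  have h4 : ∑ n : β.ker, w n = ∑ g, (if β g = 1 then w g else 0) := by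
    rw [← Finset.sum_filter]
    exact (Finset.sum_subtype (Finset.univ.filter fun g => β g = 1)
      (fun x => by simp [MonoidHom.mem_ker]) w).symm
  rw [h4]
  refine Finset.sum_congr rfl fun g _ => ?_
  split_ifs with h
  · rfl
  · exact (hw g h).symm

theorem twist_inv {G : Type u} [Group G] [Fintype G]
    (hdeg : ∀ χ : IrrCharacter G, charDegree (χ : G → ℂ) ≠ 1 → (charDegree (χ : G → ℂ)).Prime)
    (β : G →* ℂˣ) (s : ℕ) (hs : s.Prime) (hidx : β.ker.index = s) [Fintype β.ker]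
    (ψ : IrrCharacter G) (hψ : IsIrrCharacter β.ker (fun n : β.ker => (ψ : G → ℂ) n))
    (hd1 : charDegree (ψ : G → ℂ) ≠ 1) (hds : charDegree (ψ : G → ℂ) ≠ s)
    (l : β.ker →* ℂˣ) (g : G) (n : β.ker) :
    ((l ⟨g * n * g⁻¹, (MonoidHom.normal_ker β).conj_mem n n.2 g⟩ : ℂˣ) : ℂ) * (ψ : G → ℂ) n =
      ((l n : ℂˣ) : ℂ) * (ψ : G → ℂ) n := by
  classical
  haveI hN : β.ker.Normal := MonoidHom.normal_ker β
  let η : IrrCharacter β.ker :=
    ⟨fun n => ((l n : ℂˣ) : ℂ) * (ψ : G → ℂ) n, H25.isIrrCharacter_hom_mul l hψ⟩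
  obtain ⟨ξ, hξ⟩ := exists_irr_over β.ker η.2
  have hdvd := dvd_of_constituent β.ker ξ η hξ
  have hη : charDegree (η : β.ker → ℂ) = charDegree (ψ : G → ℂ) := by
    unfold charDegree
    show ⌊(((l 1 : ℂˣ) : ℂ) * (ψ : G → ℂ) ((1 : β.ker) : G)).re⌋₊ = _
    rw [map_one]; simp
  rw [hη] at hdvd
  have ha := hdeg ψ hd1
  have hξ1 : charDegree (ξ : G → ℂ) ≠ 1 := by
    intro h
    rw [h] at hdvd
    exact hd1 (Nat.dvd_one.1 hdvd)
  have hξp := hdeg ξ hξ1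
  have heq := (Nat.prime_dvd_prime_iff_eq ha hξp).1 hdvd
  by_cases hv : ∀ g, β g ≠ 1 → (ξ : G → ℂ) g = 0
  · exfalso
    have h1 := dvd_of_vanish β s hs hidx ξ hv
    have h2 := (Nat.prime_dvd_prime_iff_eq hs hξp).1 h1
    exact hds (by rw [heq, h2])
  · push Not at hv
    obtain ⟨g₀, h1, h2⟩ := hv
    have hirr := irr_restrict β s hs hidx ξ g₀ h1 h2
    have hres : (fun n : β.ker => (ξ : G → ℂ) n) = (η : β.ker → ℂ) := by
      by_contra hne
      exact hξ (classInner_irr_ne hirr η.2 hne)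
    have h3 := congrFun hres ⟨g * n * g⁻¹, hN.conj_mem n n.2 g⟩
    have h4 := congrFun hres n
    have h5 : (ξ : G → ℂ) (g * n * g⁻¹) = (ξ : G → ℂ) n := isClassFunction_of_irr ξ.2 _ _
    have h6 : (ψ : G → ℂ) (g * n * g⁻¹) = (ψ : G → ℂ) n := isClassFunction_of_irr ψ.2 _ _
    have h7 : (ξ : G → ℂ) (g * n * g⁻¹) =
        ((l ⟨g * n * g⁻¹, hN.conj_mem n n.2 g⟩ : ℂˣ) : ℂ) * (ψ : G → ℂ) (g * n * g⁻¹) := h3
    have h8 : (ξ : G → ℂ) n = ((l n : ℂˣ) : ℂ) * (ψ : G → ℂ) n := h4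
    rw [← h8, ← h5, h7, h6]

theorem core {G : Type u} [Group G] [Fintype G]
    (hdeg : ∀ χ : IrrCharacter G, charDegree (χ : G → ℂ) ≠ 1 → (charDegree (χ : G → ℂ)).Prime)
    (β : G →* ℂˣ) (s : ℕ) (hs : s.Prime) (hidx : β.ker.index = s) [Fintype β.ker]
    (hIH : ∀ θ₁ θ₂ θ₃ : IrrCharacter β.ker, charDegree (θ₁ : β.ker → ℂ) ≠ 1 →
      charDegree (θ₂ : β.ker → ℂ) ≠ 1 → charDegree (θ₃ : β.ker → ℂ) ≠ 1 →
      charDegree (θ₁ : β.ker → ℂ) ≠ charDegree (θ₂ : β.ker → ℂ) →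
      charDegree (θ₂ : β.ker → ℂ) ≠ charDegree (θ₃ : β.ker → ℂ) →
      charDegree (θ₁ : β.ker → ℂ) ≠ charDegree (θ₃ : β.ker → ℂ) → False)
    (ψa ψb χ : IrrCharacter G)
    (ha : IsIrrCharacter β.ker (fun n : β.ker => (ψa : G → ℂ) n))
    (hb : IsIrrCharacter β.ker (fun n : β.ker => (ψb : G → ℂ) n))
    (hda : charDegree (ψa : G → ℂ) ≠ 1) (hdb : charDegree (ψb : G → ℂ) ≠ 1)
    (hab : charDegree (ψa : G → ℂ) ≠ charDegree (ψb : G → ℂ))
    (has : charDegree (ψa : G → ℂ) ≠ s) (hbs : charDegree (ψb : G → ℂ) ≠ s)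
    (hχs : charDegree (χ : G → ℂ) = s) (hv : ∀ g, β g ≠ 1 → (χ : G → ℂ) g = 0) : False := by
  classical
  haveI hN : β.ker.Normal := MonoidHom.normal_ker β
  have h0 : (fun n : β.ker => (χ : G → ℂ) n) ≠ 0 := by
    intro h
    exact irr_apply_one_ne_zero χ (congrFun h 1)
  obtain ⟨lam, hlam⟩ := exists_constituent
    (isCharacter_restrict (isCharacter_of_irr χ.2) β.ker) h0
  have hdv := dvd_of_constituent β.ker χ lam hlam
  rw [hχs] at hdv
  have hl1 : charDegree (lam : β.ker → ℂ) = 1 := by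
    by_contra h
    have h2 : charDegree (lam : β.ker → ℂ) = s := ((Nat.dvd_prime hs).1 hdv).resolve_left h
    exact hIH ⟨_, ha⟩ ⟨_, hb⟩ lam hda hdb h hab (by rw [h2]; exact hbs) (by rw [h2]; exact has)
  have hl1' := Cfsg.Agent.Lib.Helper10.apply_one_of_charDegree_eq_one lam hl1
  let l : β.ker →* ℂˣ := Cfsg.Agent.Lib.Helper10.homOfLin lam hl1'
  have hl : ∀ n, ((l n : ℂˣ) : ℂ) = (lam : β.ker → ℂ) n := fun n => rfl
  have hpa := hdeg ψa hda
  have hpb := hdeg ψb hdb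
  have hinvl : ∀ (g : G) (n : β.ker), l ⟨g * n * g⁻¹, hN.conj_mem n n.2 g⟩ = l n := by
    intro g n
    let μ : β.ker →* ℂˣ := (l.comp (MulAut.conjNormal g : MulAut β.ker).toMonoidHom) * l⁻¹
    have hμ : ∀ m : β.ker, μ m = l ⟨g * m * g⁻¹, hN.conj_mem m m.2 g⟩ * (l m)⁻¹ := by
      intro m
      show l ((MulAut.conjNormal g : MulAut β.ker) m) * (l m)⁻¹ = _
      congr 2
    have key : ∀ (ψ : IrrCharacter G), IsIrrCharacter β.ker (fun n : β.ker => (ψ : G → ℂ) n) →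
        charDegree (ψ : G → ℂ) ≠ 1 → charDegree (ψ : G → ℂ) ≠ s →
        μ n ^ charDegree (ψ : G → ℂ) = 1 := by
      intro ψ hψ h1 h2
      refine twist_pow μ (isCharacter_of_irr hψ) (charDegree_cast_irr ψ).symm (fun m => ?_) n
      have h3 := twist_inv hdeg β s hs hidx ψ hψ h1 h2 l g m
      rw [hμ m, Units.val_mul, mul_assoc, mul_comm (((l m)⁻¹ : ℂˣ) : ℂ), ← mul_assoc, h3,
        mul_comm ((l m : ℂˣ) : ℂ), mul_assoc, ← Units.val_mul, mul_inv_cancel]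
      simp
    have h1 := orderOf_dvd_of_pow_eq_one (key ψa ha hda has)
    have h2 := orderOf_dvd_of_pow_eq_one (key ψb hb hdb hbs)
    have h3 : orderOf (μ n) ∣ 1 := by
      have := Nat.dvd_gcd h1 h2
      rwa [(Nat.coprime_primes hpa hpb).2 hab] at this
    have h4 : μ n = 1 := orderOf_eq_one_iff.1 (Nat.dvd_one.1 h3)
    rw [hμ n] at h4
    exact mul_inv_eq_one.1 h4
  have hinv : ∀ (g : G) (n : β.ker),
      (lam : β.ker → ℂ) ⟨g * n * g⁻¹, hN.conj_mem (n : G) n.2 g⟩ = (lam : β.ker → ℂ) n := by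
    intro g n
    rw [← hl, ← hl, hinvl g n]
  have hres := H6.restrict_eq_smul_of_invariant β.ker hN χ.2 lam.2 hlam hinv
  obtain ⟨k, hk⟩ := classInner_char_nat (isCharacter_restrict (isCharacter_of_irr χ.2) β.ker)
    (isCharacter_of_irr lam.2)
  rw [hk] at hres
  have hks : (k : ℂ) = s := by
    have h1 := congrFun hres 1
    rw [Pi.smul_apply, smul_eq_mul, hl1', mul_one] at h1
    rw [← h1, ← hχs]
    exact (charDegree_cast_irr χ).symm
  have hG0 : (Nat.card G : ℂ) ≠ 0 := by exact_mod_cast Nat.card_pos.ne'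
  have hsum0 : ∑ g, (χ : G → ℂ) g * conj ((χ : G → ℂ) g) = Nat.card G := by
    have := classInner_irr_self χ.2
    rw [classInner_def] at this
    field_simp at this
    exact this
  have hsum1 := sum_ker β (fun g => (χ : G → ℂ) g * conj ((χ : G → ℂ) g))
    (fun g hg => by rw [hv g hg]; simp)
  have hsum2 : ∑ n : β.ker, (χ : G → ℂ) n * conj ((χ : G → ℂ) n) =
      (s : ℂ) * s * Nat.card β.ker := by
    have : ∀ n : β.ker, (χ : G → ℂ) n * conj ((χ : G → ℂ) n) = (s : ℂ) * s := by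
      intro n
      have h1 := congrFun hres n
      rw [Pi.smul_apply, smul_eq_mul, hks] at h1
      have h1' : (χ : G → ℂ) n = (s : ℂ) * (lam : β.ker → ℂ) n := h1
      rw [h1', ← hl n, map_mul, Complex.conj_natCast]
      have := H25.hom_mul_conj l n
      linear_combination (s : ℂ) * s * this
    rw [Finset.sum_congr rfl (fun n _ => this n), Finset.sum_const, Finset.card_univ,
      nsmul_eq_mul, ← Nat.card_eq_fintype_card]
    ring
  have h6 : (Nat.card G : ℂ) = (Nat.card β.ker : ℂ) * s := by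
    rw [← hidx]
    exact_mod_cast (Subgroup.card_mul_index β.ker).symm
  have hN0 : (Nat.card β.ker : ℂ) ≠ 0 := by exact_mod_cast Nat.card_pos.ne'
  have hs0 : (s : ℂ) ≠ 0 := by exact_mod_cast hs.ne_zero
  rw [hsum2, hsum0, h6] at hsum1
  have h7 : (s : ℂ) = 1 := by
    have : (s : ℂ) * ((s : ℂ) * Nat.card β.ker) = 1 * ((s : ℂ) * Nat.card β.ker) := by
      linear_combination hsum1
    exact mul_right_cancel₀ (mul_ne_zero hs0 hN0) this
  have : s = 1 := by exact_mod_cast h7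
  exact hs.one_lt.ne' this

theorem no_three :
    ∀ (n : ℕ) (G : Type u) [Group G] [Finite G], Nat.card G = n →
      (∀ χ : IrrCharacter G, charDegree (χ : G → ℂ) ≠ 1 → (charDegree (χ : G → ℂ)).Prime) →
      ∀ χ₁ χ₂ χ₃ : IrrCharacter G, charDegree (χ₁ : G → ℂ) ≠ 1 →
      charDegree (χ₂ : G → ℂ) ≠ 1 → charDegree (χ₃ : G → ℂ) ≠ 1 →
      charDegree (χ₁ : G → ℂ) ≠ charDegree (χ₂ : G → ℂ) →
      charDegree (χ₂ : G → ℂ) ≠ charDegree (χ₃ : G → ℂ) →
      charDegree (χ₁ : G → ℂ) ≠ charDegree (χ₃ : G → ℂ) → False := by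
  intro n
  induction n using Nat.strong_induction_on with
  | _ n ih =>
  intro G _ _ hcard hdeg χ₁ χ₂ χ₃ h1 h2 h3 h12 h23 h13
  classical
  cases nonempty_fintype G
  haveI hsol : Group.IsSolvable G := PrimeDeg.solvable_of_prime_degrees _ G rfl hdeg
  haveI hnt : Nontrivial G := by
    by_contra hcon
    rw [not_nontrivial_iff_subsingleton] at hcon
    have h4 := charDegree_dvd_card χ₁
    rw [Nat.card_of_subsingleton (1 : G)] at h4
    exact h1 (Nat.dvd_one.1 h4)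
  have hcomm : commutator G ≠ ⊤ := (Group.IsSolvable.commutator_lt_top_of_nontrivial G).ne
  obtain ⟨s, β, hs, hidx⟩ := H25.exists_hom_prime_index hcomm
  haveI hN : β.ker.Normal := MonoidHom.normal_ker β
  have hmul : Nat.card β.ker * β.ker.index = n := hcard ▸ Subgroup.card_mul_index β.ker
  have hlt : Nat.card β.ker < n := by
    rw [← hmul, hidx]
    exact lt_mul_of_one_lt_right Nat.card_pos hs.one_lt
  have hdegN : ∀ θ : IrrCharacter β.ker, charDegree (θ : β.ker → ℂ) ≠ 1 →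
      (charDegree (θ : β.ker → ℂ)).Prime := by
    intro θ hθ
    obtain ⟨χ, hχ⟩ := ThreeDegPrimes.exists_dvd_over β.ker θ
    have hχ1 : charDegree (χ : G → ℂ) ≠ 1 := by
      intro h
      rw [h] at hχ
      exact hθ (Nat.dvd_one.1 hχ)
    have hp := hdeg χ hχ1
    rcases (Nat.dvd_prime hp).1 hχ with h | h
    · exact absurd h hθ
    · rw [h]; exact hp
  have hIH := ih _ hlt β.ker rfl hdegN
  have hV : ∀ χ : IrrCharacter G, charDegree (χ : G → ℂ) ≠ 1 →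
      (∀ g, β g ≠ 1 → (χ : G → ℂ) g = 0) → charDegree (χ : G → ℂ) = s := by
    intro χ hχ hv
    exact ((Nat.prime_dvd_prime_iff_eq hs (hdeg χ hχ)).1 (dvd_of_vanish β s hs hidx χ hv)).symm
  have hR : ∀ χ : IrrCharacter G, ¬ (∀ g, β g ≠ 1 → (χ : G → ℂ) g = 0) →
      IsIrrCharacter β.ker (fun n : β.ker => (χ : G → ℂ) n) := by
    intro χ hv
    push Not at hv
    obtain ⟨g₀, hg1, hg2⟩ := hv
    exact irr_restrict β s hs hidx χ g₀ hg1 hg2
  by_cases V1 : ∀ g, β g ≠ 1 → (χ₁ : G → ℂ) g = 0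
  · by_cases V2 : ∀ g, β g ≠ 1 → (χ₂ : G → ℂ) g = 0
    · exact h12 ((hV χ₁ h1 V1).trans (hV χ₂ h2 V2).symm)
    · by_cases V3 : ∀ g, β g ≠ 1 → (χ₃ : G → ℂ) g = 0
      · exact h13 ((hV χ₁ h1 V1).trans (hV χ₃ h3 V3).symm)
      · exact core hdeg β s hs hidx hIH χ₂ χ₃ χ₁ (hR χ₂ V2) (hR χ₃ V3) h2 h3 h23
          (fun h => h12 ((hV χ₁ h1 V1).trans h.symm)) (fun h => h13 ((hV χ₁ h1 V1).trans h.symm))
          (hV χ₁ h1 V1) V1
  · by_cases V2 : ∀ g, β g ≠ 1 → (χ₂ : G → ℂ) g = 0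
    · by_cases V3 : ∀ g, β g ≠ 1 → (χ₃ : G → ℂ) g = 0
      · exact h23 ((hV χ₂ h2 V2).trans (hV χ₃ h3 V3).symm)
      · exact core hdeg β s hs hidx hIH χ₁ χ₃ χ₂ (hR χ₁ V1) (hR χ₃ V3) h1 h3 h13
          (fun h => h12 (h.trans (hV χ₂ h2 V2).symm)) (fun h => h23 ((hV χ₂ h2 V2).trans h.symm))
          (hV χ₂ h2 V2) V2
    · by_cases V3 : ∀ g, β g ≠ 1 → (χ₃ : G → ℂ) g = 0
      · exact core hdeg β s hs hidx hIH χ₁ χ₂ χ₃ (hR χ₁ V1) (hR χ₂ V2) h1 h2 h12
          (fun h => h13 (h.trans (hV χ₃ h3 V3).symm)) (fun h => h23 (h.trans (hV χ₃ h3 V3).symm))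
          (hV χ₃ h3 V3) V3
      · exact hIH ⟨_, hR χ₁ V1⟩ ⟨_, hR χ₂ V2⟩ ⟨_, hR χ₃ V3⟩ h1 h2 h3 h12 h23 h13

theorem card_le {G : Type u} [Group G] [Finite G]
    (hprime : ∀ d ∈ Cfsg.charDegrees G, d = 1 ∨ d.Prime) :
    Nat.card ↥(Cfsg.charDegrees G) ≤ 3 := by
  classical
  have hdeg : ∀ χ : IrrCharacter G, charDegree (χ : G → ℂ) ≠ 1 →
      (charDegree (χ : G → ℂ)).Prime := by
    intro χ hχ
    exact (hprime _ ⟨χ, rfl⟩).resolve_left hχ
  have hfin : (Cfsg.charDegrees G).Finite := by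
    have : Cfsg.charDegrees G = Set.range (fun χ : IrrCharacter G => charDegree (χ : G → ℂ)) := by
      ext d
      rfl
    rw [this]
    exact Set.finite_range _
  rw [Nat.card_coe_set_eq]
  by_contra hcon
  push Not at hcon
  have h1 := Set.ncard_le_ncard_diff_add_ncard (Cfsg.charDegrees G) ({1} : Set ℕ)
    (Set.finite_singleton 1)
  rw [Set.ncard_singleton] at h1
  have h2 : 2 < (Cfsg.charDegrees G \ {1}).ncard := by omega
  rw [Set.two_lt_ncard_iff (hfin.diff)] at h2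
  obtain ⟨a, b, c, ⟨⟨χa, rfl⟩, ha1⟩, ⟨⟨χb, rfl⟩, hb1⟩, ⟨⟨χc, rfl⟩, hc1⟩, hab, hac, hbc⟩ := h2
  exact no_three _ G rfl hdeg χa χb χc ha1 hb1 hc1 hab hbc hac

end Cfsg.Agent.Lib.Helper24.PrimeDeg2
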