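import Mathlib
import Cfsg.Agent.BlockLib.KG.PrinOver2
import Cfsg.Agent.Lib.Helper10.PrincipalPSolv
import Cfsg.Agent.Lib.Helper10.PSolvOfSolv
import Cfsg.Agent.Lib.Helper10.LinIrr
import Cfsg.Agent.Lib.Helper10.DerLen
import Cfsg.Agent.Lib.Helper13.NPC1
import Cfsg.Agent.H9.Cores
import Cfsg.Agent.H1.Small2
import Cfsg.Agent.H25.Codeg
import Cfsg.Agent.S0081
import Cfsg.Agent.S4916

/-!
# `Irr_{p'}(B₀(p)) = Irr_{q'}(B₀(q))` forces `p = q` for groups that are `p`- and `q`-solvable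
-/

set_option autoImplicit false

namespace Cfsg.Agent.Lib.Helper24.PrinPQ

open Cfsg Cfsg.Agent.CharLib Cfsg.Agent.BlockLib

universe u

theorem mem_of_pow_mem {G : Type u} [Group G] (N : Subgroup G) (y : G) (a b : ℕ)
    (hab : a.Coprime b) (ha : y ^ a ∈ N) (hb : y ^ b ∈ N) : y ∈ N := by
  have h1 : ((Nat.gcd a b : ℕ) : ℤ) = a * Nat.gcdA a b + b * Nat.gcdB a b := Nat.gcd_eq_gcd_ab a b
  have h2 : y = (y ^ a) ^ (Nat.gcdA a b) * (y ^ b) ^ (Nat.gcdB a b) := by
    rw [← zpow_natCast y a, ← zpow_natCast y b, ← zpow_mul, ← zpow_mul, ← zpow_add, ← h1, hab]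
    simp
  rw [h2]
  exact N.mul_mem (N.zpow_mem ha _) (N.zpow_mem hb _)

/-- all irreducible characters of a `p`-group lie in the principal block -/
theorem mem_principalBlock_of_isPGroup {P : Type u} [Group P] [Finite P] (p : ℕ) [Fact p.Prime]
    (M : Ideal AlgInt) (hM : IsPModular p M) (hP : IsPGroup p P) (η : IrrCharacter P) :
    η ∈ principalBlock M P := by
  haveI : Group.IsNilpotent P := hP.isNilpotent
  have hs : IsPSolvable p P := Cfsg.Agent.Lib.Helper10.isPSolvable_of_isSolvable p Fact.out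
  rw [Cfsg.Agent.Lib.Helper10.principalBlock_eq_of_isPSolvable p M hM hs]
  intro n hn
  have h1 : (Nat.card ↥(pPrimeCore p P)).Coprime p := Cfsg.H9.pPrimeCore_coprime p
  obtain ⟨k, hk⟩ := IsPGroup.iff_card.1 (hP.to_subgroup (pPrimeCore p P))
  have h2 : Nat.card ↥(pPrimeCore p P) = 1 := by
    rcases Nat.eq_zero_or_pos k with rfl | hk0
    · simpa using hk
    · exfalso
      rw [hk] at h1
      have : p ∣ 1 := by
        have h3 := Nat.Coprime.eq_one_of_dvd h1.symm (dvd_pow_self p hk0.ne')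
        rw [h3]
      exact (Fact.out : p.Prime).one_lt.ne' (Nat.dvd_one.1 this)
  have h3 : pPrimeCore p P = ⊥ := (Subgroup.card_eq_one).1 h2
  rw [h3, Subgroup.mem_bot] at hn
  rw [hn]

variable {G : Type u} [Group G] [Finite G]

/-- a normal subgroup in the kernel of all `p'`-degree characters of `B₀` meets `P` inside `P'`. -/
theorem mem_commutator (p : ℕ) [Fact p.Prime] (M : Ideal AlgInt) (hM : IsPModular p M)
    (P : Sylow p G) (K : Subgroup G) [K.Normal]
    (hK : ∀ χ ∈ principalBlock M G, ¬ p ∣ charDegree (χ : G → ℂ) → K ≤ H25.kerSub χ)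
    (y : (P : Subgroup G)) (hy : (y : G) ∈ K) : y ∈ commutator (P : Subgroup G) := by
  classical
  cases nonempty_fintype G
  by_contra hcon
  obtain ⟨l, hl⟩ := Cfsg.Agent.Lib.Helper10.exists_hom_ne_one_of_notMem_commutator hcon
  let η : IrrCharacter (P : Subgroup G) := ⟨fun g => ((l g : ℂˣ) : ℂ), isIrrCharacter_of_hom l⟩
  have hη : η ∈ principalBlock M (P : Subgroup G) :=
    mem_principalBlock_of_isPGroup p M hM P.2 η
  obtain ⟨χ, hχ, h1, h2⟩ := PrinOver.exists_over hM P (P : Subgroup G) le_rfl η hη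
  have hdeg : charDegree (η : ↥(P : Subgroup G) → ℂ) = 1 := Cfsg.Agent.Lib.Helper10.charDegree_hom l
  have h3 : ¬ p ∣ charDegree (χ : G → ℂ) := h2 (by
    rw [hdeg]; exact fun h => (Fact.out : p.Prime).one_lt.ne' (Nat.dvd_one.1 h))
  have h4 := Cfsg.Agent.Lib.Helper10.ker_constituent (P : Subgroup G) χ η h1 K
    (fun x hx => (H25.mem_kerSub χ x).1 (hK χ hχ h3 hx)) y hy
  apply hl
  have h5 : ((l y : ℂˣ) : ℂ) = ((l 1 : ℂˣ) : ℂ) := h4
  rw [map_one] at h5
  exact Units.ext h5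

theorem step (p : ℕ) [Fact p.Prime] (M : Ideal AlgInt) (hM : IsPModular p M)
    (K Y : Subgroup G) [hKn : K.Normal] [hYn : Y.Normal]
    (hcop : (K.relIndex Y).Coprime p)
    (hK : ∀ χ ∈ principalBlock M G, ¬ p ∣ charDegree (χ : G → ℂ) → K ≤ H25.kerSub χ) :
    ∀ χ ∈ principalBlock M G, ¬ p ∣ charDegree (χ : G → ℂ) → Y ≤ H25.kerSub χ := by
  classical
  -- `p`-elements of `Y` lie in `K`
  have hpel : ∀ y ∈ Y, ∀ k : ℕ, y ^ p ^ k = 1 → y ∈ K := by
    intro y hy k hk
    have h1 : (⟨y, hy⟩ : Y) ^ (K.subgroupOf Y).index ∈ K.subgroupOf Y :=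
      Subgroup.pow_index_mem _ _
    have h2 : y ^ K.relIndex Y ∈ K := by
      have := Subgroup.mem_subgroupOf.1 h1
      simpa [Subgroup.relIndex] using this
    refine mem_of_pow_mem K y _ _ (Nat.Coprime.pow_right k hcop) h2 ?_
    rw [hk]; exact K.one_mem
  obtain ⟨P⟩ : Nonempty (Sylow p G) := inferInstance
  have hYP : Y ⊓ (P : Subgroup G) ≤ (frattini (P : Subgroup G)).map (P : Subgroup G).subtype := by
    intro y hy
    obtain ⟨hyY, hyP⟩ := Subgroup.mem_inf.1 hy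
    obtain ⟨k, hk⟩ := P.2 ⟨y, hyP⟩
    have hk' : y ^ p ^ k = 1 := by
      have := congrArg Subtype.val hk
      simpa using this
    have hyK := hpel y hyY k hk'
    have h1 := mem_commutator p M hM P K hK ⟨y, hyP⟩ hyK
    exact ⟨⟨y, hyP⟩, (Cfsg.H1.frattini_pgroup_ge p P.2).1 h1, rfl⟩
  have hT := Cfsg.Agent.S0081.result P Y hYP
  obtain ⟨D, hDn, hDc, hDq⟩ := Cfsg.Agent.Lib.Helper13.exists_NPCW hT
  have hD' : D.map Y.subtype ≤ pPrimeCore p G := by
    apply Cfsg.H9.subnormal_le_pPrimeCore p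
    · exact Subgroup.IsSubnormal.trans' hDn.isSubnormal hYn.isSubnormal
    · rw [Subgroup.card_map_of_injective Y.subtype_injective]
      exact hDc
  intro χ hχ hdeg y hy
  obtain ⟨k, hk⟩ := hDq ⟨y, hy⟩
  have h1 : y ^ p ^ k ∈ H25.kerSub χ := by
    rw [H25.mem_kerSub]
    apply Cfsg.Agent.Lib.Helper10.pPrimeCore_le_ker_of_mem_principalBlock p M hM χ hχ
    apply hD'
    exact ⟨_, hk, by simp⟩
  obtain ⟨e, m, hm, hn⟩ := Nat.exists_eq_pow_mul_and_not_dvd (n := orderOf y)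
    (orderOf_pos y).ne' p (Fact.out : p.Prime).one_lt.ne'
  have h2 : y ^ m ∈ H25.kerSub χ := by
    apply hK χ hχ hdeg
    apply hpel _ (Y.pow_mem hy m) e
    rw [← pow_mul, mul_comm, ← hn, pow_orderOf_eq_one]
  have hmp : m.Coprime (p ^ k) :=
    Nat.Coprime.pow_right k (((Fact.out : p.Prime).coprime_iff_not_dvd.2 hm).symm)
  exact mem_of_pow_mem _ y _ _ hmp h2 h1

theorem main (p q : ℕ) [Fact p.Prime] [Fact q.Prime] (hp : p ∣ Nat.card G)
    (hps : IsPSolvable p G) (Mp Mq : Ideal AlgInt)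
    (hMp : IsPModular p Mp) (hMq : IsPModular q Mq)
    (h : ∀ χ : IrrCharacter G, (χ ∈ principalBlock Mp G ∧ ¬ p ∣ charDegree (χ : G → ℂ)) ↔
      (χ ∈ principalBlock Mq G ∧ ¬ q ∣ charDegree (χ : G → ℂ))) : p = q := by
  classical
  by_contra hpq
  obtain ⟨n, H, h0, hlast, hmono, hnorm, hfac⟩ := hps
  have key : ∀ i : Fin (n + 1), ∀ χ ∈ principalBlock Mp G, ¬ p ∣ charDegree (χ : G → ℂ) →
      H i ≤ H25.kerSub χ := by
    intro i
    induction i using Fin.induction with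
    | zero =>
      intro χ _ _
      rw [h0]; exact bot_le
    | succ i ih =>
      haveI := hnorm i.castSucc
      haveI := hnorm i.succ
      rcases hfac i with ⟨m, hm⟩ | hc
      · -- `p`-power factor: use `q`
        have hcq : ((H i.castSucc).relIndex (H i.succ)).Coprime q := by
          rw [hm]
          exact Nat.Coprime.pow_left m ((Nat.coprime_primes Fact.out Fact.out).2 hpq)
        have ih' : ∀ χ ∈ principalBlock Mq G, ¬ q ∣ charDegree (χ : G → ℂ) →
            H i.castSucc ≤ H25.kerSub χ := by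
          intro χ h1 h2
          obtain ⟨h3, h4⟩ := (h χ).2 ⟨h1, h2⟩
          exact ih χ h3 h4
        intro χ h1 h2
        obtain ⟨h3, h4⟩ := (h χ).1 ⟨h1, h2⟩
        exact step q Mq hMq _ _ hcq ih' χ h3 h4
      · exact step p Mp hMp _ _ hc ih
  have hall := key (Fin.last n)
  rw [hlast] at hall
  have := (Cfsg.Agent.S4916.result (G := G) p Mp hMp).1 (fun χ h1 h2 =>
    H25.eq_one_of_kerSub_eq_top χ (top_le_iff.1 (hall χ h1 h2)))
  exact this hp

end Cfsg.Agent.Lib.Helper24.PrinPQ
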